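import Mathlib
import Cfsg.Agent.Lib.Helper61.QB.Defs
import Cfsg.Agent.Lib.Helper70.GL42.P
import Cfsg.Agent.S0675

set_option autoImplicit false

namespace Cfsg.Agent.Lib.Helper96.QB

open Cfsg.Agent.Lib.Helper61.QB

universe u

variable {p : ℕ} [Fact p.Prime]

/-- an element of a `p`-subgroup of `S_p` having a fixed point is trivial -/
theorem eq_one_of_fixed (U : Subgroup (Equiv.Perm (Fin p))) (hU : IsPGroup p U)
    (u : Equiv.Perm (Fin p)) (hu : u ∈ U) (x : Fin p) (hx : u x = x) : u = 1 := by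
  have hZ : IsPGroup p (Subgroup.zpowers u) := hU.to_le (Subgroup.zpowers_le.2 hu)
  have hmod := hZ.card_modEq_card_fixedPoints (Fin p)
  rw [Nat.card_eq_fintype_card, Fintype.card_fin] at hmod
  have hdvd : p ∣ Nat.card (MulAction.fixedPoints (Subgroup.zpowers u) (Fin p)) := by
    apply (Nat.modEq_zero_iff_dvd).1
    exact hmod.symm.trans (by simp [Nat.ModEq])
  have hxf : x ∈ MulAction.fixedPoints (Subgroup.zpowers u) (Fin p) := by
    rintro ⟨z, hz⟩
    obtain ⟨n, rfl⟩ := Subgroup.mem_zpowers_iff.1 hz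
    exact Equiv.Perm.zpow_apply_eq_self_of_apply_eq_self hx n
  have hpos : 0 < Nat.card (MulAction.fixedPoints (Subgroup.zpowers u) (Fin p)) := by
    have : Nonempty (MulAction.fixedPoints (Subgroup.zpowers u) (Fin p)) := ⟨⟨x, hxf⟩⟩
    exact Nat.card_pos
  have hle := Nat.le_of_dvd hpos hdvd
  have huniv : MulAction.fixedPoints (Subgroup.zpowers u) (Fin p) = Set.univ := by
    rw [Set.eq_univ_iff_ncard, ← Nat.card_coe_set_eq, Nat.card_eq_fintype_card (α := Fin p),
      Fintype.card_fin]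
    apply le_antisymm _ hle
    have := Set.ncard_le_card (MulAction.fixedPoints (Subgroup.zpowers u) (Fin p))
    rw [Nat.card_coe_set_eq]
    simpa using this
  ext y
  have hy : y ∈ MulAction.fixedPoints (Subgroup.zpowers u) (Fin p) := by rw [huniv]; trivial
  have := hy ⟨u, Subgroup.mem_zpowers u⟩
  exact congrArg Fin.val this

/-- [PERM] -/
theorem perm_solvable_of_pairs (T U : Subgroup (Equiv.Perm (Fin p))) (hU : IsPGroup p U)
    (c : Equiv.Perm (Fin p)) (hcT : c ∈ T) (hc : orderOf c = p)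
    (h : ∀ t ∈ T, ∀ i j : Fin p, i ≠ j → ∃ u ∈ U, ({t i, t j} : Set (Fin p)) = {u i, u j}) :
    Group.IsSolvable T := by
  classical
  have hp : p.Prime := Fact.out
  by_cases hp4 : p ≤ 4
  · have := Cfsg.Agent.Lib.Helper70.GL42.perm_isSolvable_of_card_le_four (Fin p) (by simpa using hp4)
    infer_instance
  push Not at hp4
  have hcyc : c.IsCycle := Equiv.Perm.isCycle_of_prime_order'' (by simpa using hp) (by simpa using hc)
  have hsupp : c.support = Finset.univ := by
    apply Finset.eq_univ_of_card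
    rw [← hcyc.orderOf, hc, Fintype.card_fin]
  have htr : MulAction.IsPretransitive T (Fin p) := by
    refine ⟨fun x y => ?_⟩
    have hx : c x ≠ x := Equiv.Perm.mem_support.1 (by rw [hsupp]; exact Finset.mem_univ x)
    have hy : c y ≠ y := Equiv.Perm.mem_support.1 (by rw [hsupp]; exact Finset.mem_univ y)
    obtain ⟨n, hn⟩ := hcyc.sameCycle hx hy
    exact ⟨⟨c ^ n, T.zpow_mem hcT n⟩, hn⟩
  rcases Cfsg.Agent.S0675.result (α := Fin p) (by simpa using hp) T with hsol | h2
  · exact hsol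
  exfalso
  rw [MulAction.is_two_pretransitive_iff] at h2
  let i0 : Fin p := ⟨0, by omega⟩
  let i1 : Fin p := ⟨1, by omega⟩
  let i2 : Fin p := ⟨2, by omega⟩
  let i3 : Fin p := ⟨3, by omega⟩
  have h01 : i0 ≠ i1 := by simp [i0, i1, Fin.ext_iff]
  have key : ∀ x : Fin p, x ≠ i0 → x ≠ i1 → ∃ u ∈ U, u i0 = x ∧ u i1 = i0 := by
    intro x hx0 hx1
    obtain ⟨t, ht0, ht1⟩ := h2 h01 hx0.symm
    have ht0' : t.1 i0 = i0 := ht0
    have ht1' : t.1 i1 = x := ht1
    obtain ⟨u, hu, hset⟩ := h t.1 t.2 i0 i1 h01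
    rw [ht0', ht1'] at hset
    refine ⟨u, hu, ?_⟩
    have hne : u i0 ≠ u i1 := fun he => h01 (u.injective he)
    have m0 : u i0 ∈ ({i0, x} : Set (Fin p)) := by rw [hset]; simp
    have m1 : u i1 ∈ ({i0, x} : Set (Fin p)) := by rw [hset]; simp
    have hu0 : u i0 ≠ i0 := by
      intro he
      have hu1 := eq_one_of_fixed U hU u hu i0 he
      rw [hu1] at m1
      rcases m1 with m | m
      · exact h01 m.symm
      · exact hx1 m.symm
    rcases m0 with m | m
    · exact absurd m hu0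
    · have m' : u i0 = x := m
      refine ⟨m', ?_⟩
      rcases m1 with m1 | m1
      · exact m1
      · exact absurd (m'.trans (m1 : u i1 = x).symm) hne
  obtain ⟨u2, hu2, a2, b2⟩ := key i2 (by simp [i0, i2, Fin.ext_iff]) (by simp [i1, i2, Fin.ext_iff])
  obtain ⟨u3, hu3, a3, b3⟩ := key i3 (by simp [i0, i3, Fin.ext_iff]) (by simp [i1, i3, Fin.ext_iff])
  have h5 : u2⁻¹ * u3 = 1 := by
    apply eq_one_of_fixed U hU _ (U.mul_mem (U.inv_mem hu2) hu3) i1
    rw [Equiv.Perm.mul_apply, b3, ← b2]; simp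
  have h6 : u3 = u2 := by
    have := congrArg (fun z => u2 * z) h5
    simpa using this
  have h7 : i2 = i3 := by rw [← a2, ← a3, h6]
  simp [i2, i3, Fin.ext_iff] at h7

end Cfsg.Agent.Lib.Helper96.QB
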