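import Mathlib
import Cfsg.Agent.Lib.Helper61.QB.Defs

set_option autoImplicit false

namespace Cfsg.Agent.Lib.Helper96.QB

open Cfsg.Agent.Lib.Helper61.QB

universe u

/-- an endomorphism of determinant one of a space of dimension at most one is the identity -/
theorem eq_id_of_det_of_finrank_le_one {K U : Type*} [Field K] [AddCommGroup U] [Module K U]
    [Module.Finite K U] (g : U →ₗ[K] U) (hd : Module.finrank K U ≤ 1) (hg : LinearMap.det g = 1) :
    ∀ x, g x = x := by
  intro x
  rcases Nat.lt_or_ge (Module.finrank K U) 1 with h0 | h1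
  · have : Subsingleton U := (Module.finrank_zero_iff (R := K)).1 (by omega)
    exact Subsingleton.elim _ _
  · have h1' : Module.finrank K U = 1 := le_antisymm hd h1
    obtain ⟨v, hv, hspan⟩ := finrank_eq_one_iff'.1 h1'
    obtain ⟨c, hc⟩ := hspan (g v)
    have hgc : g = c • LinearMap.id := by
      ext y
      obtain ⟨d, rfl⟩ := hspan y
      rw [map_smul, ← hc, LinearMap.smul_apply, LinearMap.id_apply, smul_comm]
    rw [hgc, LinearMap.det_smul, h1', pow_one, LinearMap.det_id, mul_one] at hg
    rw [hgc, hg, one_smul, LinearMap.id_apply]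

/-- determinant one, dimension at most two and a fixed vector: unipotent -/
theorem unip_of_fixed {K V : Type*} [Field K] [AddCommGroup V] [Module K V]
    [Module.Finite K V] (f : V →ₗ[K] V) (hd : Module.finrank K V ≤ 2) (hf : LinearMap.det f = 1)
    (w : V) (hw : w ≠ 0) (hfw : f w = w) : ∀ x, f (f x - x) = f x - x := by
  set W : Submodule K V := Submodule.span K {w} with hW
  have hfix : ∀ y ∈ W, f y = y := by
    intro y hy
    obtain ⟨c, rfl⟩ := Submodule.mem_span_singleton.1 hy
    rw [map_smul, hfw]
  have he : W ≤ W.comap f := by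
    intro y hy
    rw [Submodule.mem_comap, hfix y hy]
    exact hy
  have h1 := LinearMap.det_eq_det_mul_det W f he
  have h2 : f.restrict he = LinearMap.id := by
    ext y
    rw [LinearMap.restrict_apply]
    exact hfix y.1 y.2
  rw [h2, LinearMap.det_id, one_mul, hf] at h1
  have h3 : Module.finrank K (V ⧸ W) ≤ 1 := by
    have h4 := Submodule.finrank_quotient_add_finrank W
    have h5 : Module.finrank K W = 1 := finrank_span_singleton hw
    omega
  intro x
  have h6 := eq_id_of_det_of_finrank_le_one (W.mapQ W f he) h3 h1.symm (Submodule.Quotient.mk x)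
  rw [Submodule.mapQ_apply, Submodule.Quotient.eq] at h6
  exact hfix _ h6

variable {q p : ℕ} [Fact q.Prime] [Fact p.Prime] {V : Type u} [AddCommGroup V] [Module (ZMod q) V]
  [Finite V]

omit [Finite V] in
theorem pow_apply_of_unip (f : V ≃ₗ[ZMod q] V) (h : ∀ x, f (f x - x) = f x - x) (k : ℕ) (x : V) :
    (f ^ k) x = x + k • (f x - x) := by
  induction k with
  | zero => simp
  | succ k ih =>
    rw [pow_succ', LinearEquiv.mul_apply, ih, map_add, map_nsmul, h, succ_nsmul]
    abel

/-- [X6] -/
theorem solvable_of_finrank_le_two {A : Subgroup (V ≃ₗ[ZMod q] V)} (hA : Good q p A)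
    (hd : Module.finrank (ZMod q) V ≤ 2) : Group.IsSolvable A := by
  classical
  have hfinA : Finite A := inferInstance
  let δ : A →* (ZMod q)ˣ := (LinearEquiv.det : (V ≃ₗ[ZMod q] V) →* (ZMod q)ˣ).comp A.subtype
  have hS : IsPGroup p δ.ker := by
    rw [IsPGroup.iff_card]
    refine ⟨_, Nat.eq_prime_pow_of_unique_prime_dvd Nat.card_pos.ne' ?_⟩
    intro l hl hdvd
    by_contra hlp
    have : Fact l.Prime := ⟨hl⟩
    obtain ⟨s, hs⟩ := exists_prime_orderOf_dvd_card' l hdvd
    set a : A := s.1 with ha
    have hao : orderOf a = l := by rw [ha, Subgroup.orderOf_coe, hs]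
    have hdet : LinearMap.det (a.1 : V →ₗ[ZMod q] V) = 1 := by
      have h1 : δ a = 1 := s.2
      have h2 : LinearEquiv.det a.1 = 1 := h1
      rw [← LinearEquiv.coe_det, h2, Units.val_one]
    have ha1 : a ≠ 1 := by
      intro h
      rw [h, orderOf_one] at hao
      exact hl.one_lt.ne hao
    -- `V` is not trivial
    obtain ⟨v, hv⟩ : ∃ v : V, v ≠ 0 := by
      by_contra hcon
      push Not at hcon
      apply ha1
      apply Subtype.ext
      ext x
      rw [hcon x, map_zero, map_zero]
    -- a fixed point in the orbit of `v`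
    obtain ⟨k, hk⟩ := hA.2 v
    have hcard : Nat.card (MulAction.orbit A v) = p ^ k := by
      rw [← hk, MulAction.index_stabilizer, Nat.card_coe_set_eq]
    have hZ : IsPGroup l (Subgroup.zpowers a) := by
      apply IsPGroup.of_card (n := 1)
      rw [Nat.card_zpowers, hao, pow_one]
    have hmod := hZ.card_modEq_card_fixedPoints (MulAction.orbit A v)
    have hne : Nat.card (MulAction.fixedPoints (Subgroup.zpowers a) (MulAction.orbit A v)) ≠ 0 := by
      intro h0
      rw [h0, hcard] at hmod
      have h1 : l ∣ p ^ k := (Nat.modEq_zero_iff_dvd).1 hmod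
      exact hlp ((Nat.prime_dvd_prime_iff_eq hl Fact.out).1 (hl.dvd_of_dvd_pow h1))
    obtain ⟨⟨w, hwfix⟩⟩ : Nonempty (MulAction.fixedPoints (Subgroup.zpowers a)
        (MulAction.orbit A v)) := by
      by_contra hemp
      rw [not_nonempty_iff] at hemp
      exact hne Nat.card_of_isEmpty
    have haw : a.1 w.1 = w.1 := by
      have := hwfix ⟨a, Subgroup.mem_zpowers a⟩
      exact congrArg Subtype.val this
    have hw0 : w.1 ≠ 0 := by
      obtain ⟨b, hb⟩ := w.2
      intro h0
      rw [h0] at hb
      have hb' : b.1 v = 0 := hb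
      exact hv (by simpa using hb')
    have hun := unip_of_fixed (a.1 : V →ₗ[ZMod q] V) hd hdet w.1 hw0 haw
    have hpow : a.1 ^ q = 1 := by
      ext x
      rw [pow_apply_of_unip a.1 hun q x, ← Nat.cast_smul_eq_nsmul (ZMod q), ZMod.natCast_self,
        zero_smul, add_zero]
      rfl
    have h1 : orderOf a.1 ∣ q := orderOf_dvd_of_pow_eq_one hpow
    rw [Subgroup.orderOf_coe, hao] at h1
    have h2 : l ∣ Nat.card A := hao ▸ orderOf_dvd_natCard a
    have h3 : l ∣ 1 := by
      have := Nat.dvd_gcd h2 h1
      rwa [hA.1] at this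
    exact hl.one_lt.ne' (Nat.dvd_one.1 h3)
  have : Group.IsSolvable δ.ker := by
    have := hS.isNilpotent
    infer_instance
  exact Group.isSolvable_of_ker_le_range δ.ker.subtype δ (by
    intro x hx
    exact ⟨⟨x, hx⟩, rfl⟩)

end Cfsg.Agent.Lib.Helper96.QB
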