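import Mathlib
import Cfsg.Agent.Lib.Helper61.QB.Defs
import Cfsg.Agent.S0675
import Cfsg.Agent.S3972

set_option autoImplicit false

namespace Cfsg.Agent.Lib.Helper96.QB

open Cfsg.Agent.Lib.Helper61.QB

universe u

variable {q p : ℕ} [Fact q.Prime] [Fact p.Prime] {V : Type u} [AddCommGroup V] [Module (ZMod q) V]
  [Finite V]

set_option maxHeartbeats 1600000 in
/-- [X7f] -/
theorem two_trans_or_solvable {A P : Subgroup (V ≃ₗ[ZMod q] V)} (hA : Good q p A)
    (hP : SylIn p P A) (hcyc : IsCyclic P) (hsr : Semireg P) (hs : SameOrb P A)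
    (hsimple : ∀ N : Subgroup (V ≃ₗ[ZMod q] V), NormIn N A → N = ⊥ ∨ N = A) (v : V) (hv : v ≠ 0) :
    Group.IsSolvable A ∨ MulAction.IsMultiplyPretransitive A (MulAction.orbit A v) 2 := by
  classical
  have hp : p.Prime := Fact.out
  obtain ⟨hPA, hPp, -⟩ := hP
  have hsimple' : ∀ K : Subgroup A, K.Normal → K = ⊥ ∨ K = ⊤ := by
    intro K hK
    have hN : NormIn (K.map A.subtype) A := by
      refine ⟨Subgroup.map_subtype_le K, ?_⟩
      rintro a ha _ ⟨k, hk, rfl⟩
      exact ⟨⟨a, ha⟩ * k * ⟨a, ha⟩⁻¹, hK.conj_mem k hk _, rfl⟩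
    rcases hsimple _ hN with h | h
    · left
      exact (Subgroup.map_eq_bot_iff_of_injective K A.subtype_injective).1 h
    · right
      rw [eq_top_iff]
      intro x _
      have hx : x.1 ∈ K.map A.subtype := by rw [h]; exact x.2
      obtain ⟨k, hk, hkx⟩ := hx
      have : k = x := Subtype.ext hkx
      rwa [← this]
  have hfin : Fintype (MulAction.orbit A v) := Fintype.ofFinite _
  let β : P → MulAction.orbit A v := fun π => ⟨π.1 v, ⟨⟨π.1, hPA π.2⟩, rfl⟩⟩
  have hβ : Function.Bijective β := by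
    constructor
    · intro π π' h
      have h1 : π.1 v = π'.1 v := congrArg Subtype.val h
      by_contra hne
      have h2 : π'.1⁻¹ * π.1 ≠ 1 := by
        intro h3
        apply hne
        apply Subtype.ext
        exact (inv_mul_eq_one.1 h3).symm
      apply hv
      apply hsr _ (P.mul_mem (P.inv_mem π'.2) π.2) h2 v
      rw [LinearEquiv.mul_apply, h1, ← LinearEquiv.mul_apply, inv_mul_cancel]
      rfl
    · rintro ⟨w, a, rfl⟩
      obtain ⟨π, hπ, h⟩ := hs a.1 a.2 v
      exact ⟨⟨π, hπ⟩, Subtype.ext h.symm⟩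
  have hcard : Nat.card (MulAction.orbit A v) = Nat.card P :=
    (Nat.card_congr (Equiv.ofBijective β hβ)).symm
  obtain ⟨m, hm⟩ := IsPGroup.iff_card.1 hPp
  rcases Nat.eq_zero_or_pos m with rfl | hm0
  · left
    have hPbot : ∀ π ∈ P, π = 1 := by
      rw [pow_zero] at hm
      have hss := (Nat.card_eq_one_iff_unique.1 hm).1
      intro π hπ
      have := Subsingleton.elim (⟨π, hπ⟩ : P) 1
      exact congrArg Subtype.val this
    have : Subsingleton A := ⟨fun a b => by
      apply Subtype.ext
      ext x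
      obtain ⟨π, hπ, h⟩ := hs a.1 a.2 x
      obtain ⟨π', hπ', h'⟩ := hs b.1 b.2 x
      rw [h, h', hPbot π hπ, hPbot π' hπ']⟩
    infer_instance
  let φ : A →* Equiv.Perm (MulAction.orbit A v) := MulAction.toPermHom A (MulAction.orbit A v)
  obtain ⟨π1, hπ1P, hπ11⟩ : ∃ π ∈ P, π ≠ 1 := by
    have h1 : 1 < Nat.card P := by rw [hm]; exact Nat.one_lt_pow hm0.ne' hp.one_lt
    have := Finite.one_lt_card_iff_nontrivial.1 h1
    obtain ⟨x, hx⟩ := exists_ne (1 : P)
    exact ⟨x.1, x.2, fun h => hx (Subtype.ext h)⟩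
  have hinj : Function.Injective φ := by
    rw [← MonoidHom.ker_eq_bot_iff]
    rcases hsimple' φ.ker inferInstance with h | h
    · exact h
    · exfalso
      have h1 : (⟨π1, hPA hπ1P⟩ : A) ∈ φ.ker := by rw [h]; trivial
      have h2 : φ ⟨π1, hPA hπ1P⟩ ⟨v, MulAction.mem_orbit_self v⟩ =
          ⟨v, MulAction.mem_orbit_self v⟩ := by rw [MonoidHom.mem_ker.1 h1]; rfl
      have h3 : π1 v = v := congrArg Subtype.val h2
      exact hv (hsr π1 hπ1P hπ11 v h3)
  have htr : MulAction.IsPretransitive φ.range (MulAction.orbit A v) := by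
    refine ⟨fun x y => ?_⟩
    obtain ⟨a, ha⟩ := MulAction.exists_smul_eq A x y
    exact ⟨⟨φ a, a, rfl⟩, ha⟩
  have h2tr : MulAction.IsMultiplyPretransitive φ.range (MulAction.orbit A v) 2 →
      MulAction.IsMultiplyPretransitive A (MulAction.orbit A v) 2 := by
    intro h
    rw [MulAction.is_two_pretransitive_iff] at h ⊢
    intro a b c d hab hcd
    obtain ⟨⟨_, g, rfl⟩, h1, h2⟩ := h hab hcd
    exact ⟨g, h1, h2⟩
  have hsolv : Group.IsSolvable φ.range → Group.IsSolvable A := by
    intro h
    exact Group.isSolvable_of_isSolvable_injective (f := φ.rangeRestrict) (by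
      intro a b hab
      exact hinj (congrArg Subtype.val hab))
  have hΩ : Fintype.card (MulAction.orbit A v) = p ^ m := by
    rw [← Nat.card_eq_fintype_card, hcard, hm]
  by_cases h2 : MulAction.IsMultiplyPretransitive φ.range (MulAction.orbit A v) 2
  · exact Or.inr (h2tr h2)
  rcases Nat.lt_or_ge m 2 with hm1 | hm2
  · have hm1' : m = 1 := by omega
    subst hm1'
    rcases Cfsg.Agent.S0675.result (α := MulAction.orbit A v) (by rw [hΩ, pow_one]; exact hp)
      φ.range with h | h
    · exact Or.inl (hsolv h)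
    · exact absurd h h2
  · exfalso
    obtain ⟨π0, hπ0⟩ := hcyc.exists_generator
    have ho : orderOf π0 = p ^ m := by rw [orderOf_eq_card_of_forall_mem_zpowers hπ0, hm]
    let a0 : A := ⟨π0.1, hPA π0.2⟩
    have hoa : orderOf a0 = p ^ m := by
      rw [← ho, ← Subgroup.orderOf_coe π0, ← Subgroup.orderOf_coe a0]
    let g : φ.range := ⟨φ a0, a0, rfl⟩
    have hg : orderOf g = p ^ m := by
      rw [← Subgroup.orderOf_coe g]
      change orderOf (φ a0) = _
      rw [orderOf_injective φ hinj, hoa]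
    have h3 := (Cfsg.Agent.S3972.result p m hp hm2 hΩ φ.range htr h2 g hg).2
    apply h3
    have hMtop : Subgroup.normalClosure ({g ^ (p ^ (m - 1))} : Set φ.range) = ⊤ := by
      have hK : ((Subgroup.normalClosure ({g ^ (p ^ (m - 1))} : Set φ.range)).comap
          φ.rangeRestrict).Normal := inferInstance
      rcases hsimple' _ hK with h | h
      · exfalso
        have h4 : a0 ^ (p ^ (m - 1)) ∈ (Subgroup.normalClosure
            ({g ^ (p ^ (m - 1))} : Set φ.range)).comap φ.rangeRestrict := by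
          rw [Subgroup.mem_comap, map_pow]
          exact Subgroup.subset_normalClosure (Set.mem_singleton _)
        rw [h, Subgroup.mem_bot] at h4
        have h5 := orderOf_dvd_of_pow_eq_one h4
        rw [hoa] at h5
        have h6 := Nat.le_of_dvd (pow_pos hp.pos _) h5
        have h7 := Nat.pow_lt_pow_right hp.one_lt (show m - 1 < m by omega)
        omega
      · rw [eq_top_iff]
        rintro ⟨_, a, rfl⟩ _
        have : a ∈ (Subgroup.normalClosure
            ({g ^ (p ^ (m - 1))} : Set φ.range)).comap φ.rangeRestrict := by rw [h]; trivial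
        exact this
    constructor
    intro x y
    obtain ⟨γ, hγ⟩ := htr.exists_smul_eq x y
    have hγM : γ ∈ Subgroup.normalClosure ({g ^ (p ^ (m - 1))} : Set φ.range) := by
      rw [hMtop]; exact Subgroup.mem_top γ
    refine ⟨⟨γ, hγM⟩, ?_⟩
    rw [Subgroup.mk_smul]
    exact hγ

end Cfsg.Agent.Lib.Helper96.QB
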