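import Mathlib
import Cfsg.Agent.Lib.Helper61.QB.Defs

set_option autoImplicit false

namespace Cfsg.Agent.Lib.Helper96.QB

open Cfsg.Agent.Lib.Helper61.QB

universe u

variable {q p : ℕ} [Fact q.Prime] [Fact p.Prime] {V : Type u} [AddCommGroup V] [Module (ZMod q) V]
  [Finite V]

/-- [X7g] -/
theorem false_of_two_trans {A P : Subgroup (V ≃ₗ[ZMod q] V)} (hp2 : p ≠ 2)
    (hc : (Nat.card A).Coprime q) (hPA : P ≤ A) (hPp : IsPGroup p P) (hP1 : P ≠ ⊥)
    (hsr : Semireg P) (hs : SameOrb P A) (v : V) (hv : v ≠ 0)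
    (h2 : MulAction.IsMultiplyPretransitive A (MulAction.orbit A v) 2) : False := by
  rw [MulAction.is_two_pretransitive_iff] at h2
  obtain ⟨π, hπ, hπ1⟩ := (Subgroup.ne_bot_iff_exists_ne_one.1 hP1 : ∃ a : P, a ≠ 1) |>.elim
    (fun a ha => (⟨a.1, a.2, fun h => ha (Subtype.ext h)⟩ : ∃ π, π ∈ P ∧ π ≠ 1))
  have hπv : π v ≠ v := fun h => hv (hsr π hπ hπ1 v h)
  have hπi1 : π⁻¹ ≠ 1 := fun h => hπ1 (inv_eq_one.1 h)
  have hπiv : π⁻¹ v ≠ v := fun h => hv (hsr π⁻¹ (P.inv_mem hπ) hπi1 v h)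
  have mem : ∀ ρ ∈ P, ρ v ∈ MulAction.orbit A v := fun ρ hρ => ⟨⟨ρ, hPA hρ⟩, rfl⟩
  let x0 : MulAction.orbit A v := ⟨v, MulAction.mem_orbit_self v⟩
  let x1 : MulAction.orbit A v := ⟨π v, mem π hπ⟩
  let x2 : MulAction.orbit A v := ⟨π⁻¹ v, mem π⁻¹ (P.inv_mem hπ)⟩
  have h01 : x0 ≠ x1 := fun h => hπv (congrArg Subtype.val h).symm
  have h02 : x0 ≠ x2 := fun h => hπiv (congrArg Subtype.val h).symm
  obtain ⟨a, ha0, ha1⟩ := h2 h01 h02
  have ha0' : a.1 v = v := congrArg Subtype.val ha0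
  have ha1' : a.1 (π v) = π⁻¹ v := congrArg Subtype.val ha1
  set w : V := π v - v with hw
  have hw0 : w ≠ 0 := sub_ne_zero.2 hπv
  obtain ⟨π', hπ', haw⟩ := hs a.1 a.2 w
  have h3 : a.1 w = π⁻¹ v - v := by rw [hw, map_sub, ha0', ha1']
  have h4 : π (π' w) = - w := by
    rw [← haw, h3, map_sub, hw]
    have : π (π⁻¹ v) = v := by
      rw [← LinearEquiv.mul_apply, mul_inv_cancel]; rfl
    rw [this]; abel
  set ρ := π * π' with hρ
  have hρP : ρ ∈ P := P.mul_mem hπ hπ'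
  have h5 : ρ w = - w := h4
  have h6 : (ρ * ρ) w = w := by
    rw [LinearEquiv.mul_apply, h5, map_neg, h5, neg_neg]
  have h7 : ρ * ρ = 1 := by
    by_contra hne
    exact hw0 (hsr _ (P.mul_mem hρP hρP) hne w h6)
  have h8 : ρ = 1 := by
    obtain ⟨k, hk⟩ := hPp ⟨ρ, hρP⟩
    have hk' : ρ ^ (p ^ k) = 1 := by
      have := congrArg Subtype.val hk
      simpa using this
    have h9 : orderOf ρ ∣ 2 := orderOf_dvd_of_pow_eq_one (by rw [pow_two, h7])
    have h10 : orderOf ρ ∣ p ^ k := orderOf_dvd_of_pow_eq_one hk'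
    have hcop : Nat.Coprime 2 (p ^ k) := by
      apply Nat.Coprime.pow_right
      rw [Nat.coprime_primes Nat.prime_two Fact.out]
      exact fun h => hp2 h.symm
    have := Nat.eq_one_of_dvd_coprimes hcop h9 h10
    exact orderOf_eq_one_iff.1 this
  have h11 : w = - w := by
    rw [h8] at h5
    exact h5
  have hq2 : q = 2 := by
    by_contra hq2
    have h12 : (2 : ZMod q) • w = 0 := by
      rw [two_smul]
      nth_rewrite 1 [h11]
      exact neg_add_cancel w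
    have h13 : (2 : ZMod q) ≠ 0 := by
      intro h
      have h14 : ((2 : ℕ) : ZMod q) = 0 := by exact_mod_cast h
      rw [ZMod.natCast_eq_zero_iff] at h14
      exact hq2 ((Nat.prime_dvd_prime_iff_eq Fact.out Nat.prime_two).1 h14)
    rcases smul_eq_zero.1 h12 with h | h
    · exact h13 h
    · exact hw0 h
  obtain ⟨a', ha0, ha1⟩ := h2 h01 h01.symm
  have hb0 : a'.1 v = π v := congrArg Subtype.val ha0
  have hb1 : a'.1 (π v) = v := congrArg Subtype.val ha1
  have hsq : ∀ k : ℕ, (a'.1 ^ (2 * k)) v = v := by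
    intro k
    induction k with
    | zero => simp
    | succ k ih =>
      rw [Nat.mul_succ, pow_add, LinearEquiv.mul_apply, pow_two, LinearEquiv.mul_apply, hb0, hb1, ih]
  have heven : 2 ∣ orderOf a'.1 := by
    by_contra hodd
    obtain ⟨k, hk⟩ : Odd (orderOf a'.1) := Nat.odd_iff.2 (by omega)
    have h15 := pow_orderOf_eq_one a'.1
    rw [hk, pow_succ] at h15
    have h16 : (a'.1 ^ (2 * k) * a'.1) v = v := by rw [h15]; rfl
    have hcomm : a'.1 ^ (2 * k) * a'.1 = a'.1 * a'.1 ^ (2 * k) := by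
      rw [← pow_succ, ← pow_succ']
    rw [hcomm, LinearEquiv.mul_apply, hsq, hb0] at h16
    exact hπv h16
  have h17 : orderOf a'.1 ∣ Nat.card A := by
    rw [← Subgroup.orderOf_mk a'.1 a'.2]
    exact orderOf_dvd_natCard _
  have h18 : q ∣ Nat.card A := by
    have h19 : q ∣ orderOf a'.1 := by
      have : q ∣ 2 := by rw [hq2]
      exact this.trans heven
    exact h19.trans h17
  exact (Nat.Prime.coprime_iff_not_dvd (Fact.out : q.Prime)).1 hc.symm h18

end Cfsg.Agent.Lib.Helper96.QB
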